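import Mathlib.RingTheory.Polynomial.Cyclotomic.Roots
import Mathlib.RingTheory.RootsOfUnity.Complex
import Mathlib.LinearAlgebra.Matrix.Trace
import Mathlib.Data.Matrix.Mul
import Mathlib.GroupTheory.GroupAction.Basic
import Mathlib.Tactic.LinearCombination

/-!
Invariant matrices of a transitive group with a fixed-point-free element having two `p`-cycles:
the idempotent belonging to the character containing the signed cycle vector, and the
product formula for cycle diagonals.
-/

set_option autoImplicit false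

open Matrix MulAction

namespace Cfsg.Agent.PermB.TwoP

/-- A rational relation between the `p`-th roots of unity has equal coefficients. -/
theorem coeff_eq_of_sum_eq_zero {p : ℕ} [Fact p.Prime] {ζ : ℂ} (hζ : IsPrimitiveRoot ζ p)
    (c : ZMod p → ℚ) (h : ∑ j, (c j : ℂ) * ζ ^ j.val = 0) (i : ZMod p) : c i = c 0 := by
  classical
  have hp : p.Prime := Fact.out
  set P : Polynomial ℚ := ∑ j : ZMod p, Polynomial.monomial j.val (c j) with hP
  have hev : Polynomial.aeval ζ P = 0 := by
    simp only [hP, map_sum, Polynomial.aeval_monomial, eq_ratCast]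
    exact h
  have hcoef : ∀ k : ZMod p, P.coeff k.val = c k := by
    intro k
    rw [hP, Polynomial.finsetSum_coeff, Finset.sum_eq_single k]
    · rw [Polynomial.coeff_monomial, if_pos rfl]
    · intro j _ hj
      rw [Polynomial.coeff_monomial, if_neg fun e => hj (ZMod.val_injective p e)]
    · exact fun hk => absurd (Finset.mem_univ k) hk
  have hdeg : P.natDegree ≤ p - 1 :=
    Polynomial.natDegree_sum_le_of_forall_le _ _ fun j _ =>
      (Polynomial.natDegree_monomial_le _).trans (Nat.le_pred_of_lt j.val_lt)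
  have hdvd : Polynomial.cyclotomic p ℚ ∣ P := by
    rw [Polynomial.cyclotomic_eq_minpoly_rat hζ hp.pos]
    exact minpoly.dvd ℚ ζ hev
  obtain ⟨Q, hQ⟩ := hdvd
  by_cases hQ0 : Q = 0
  · have : P = 0 := by rw [hQ, hQ0, mul_zero]
    rw [← hcoef i, ← hcoef 0, this, Polynomial.coeff_zero, Polynomial.coeff_zero]
  have hQd : Q.natDegree = 0 := by
    rw [hQ, Polynomial.natDegree_mul (Polynomial.cyclotomic_ne_zero _ _) hQ0,
      Polynomial.natDegree_cyclotomic, Nat.totient_prime hp] at hdeg
    omega
  obtain ⟨l, rfl⟩ := Polynomial.natDegree_eq_zero.1 hQd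
  have hall : ∀ k : ZMod p, c k = l := by
    intro k
    rw [← hcoef k, hQ, Polynomial.cyclotomic_prime, Finset.sum_mul, Polynomial.finsetSum_coeff,
      Finset.sum_eq_single k.val]
    · rw [mul_comm, Polynomial.coeff_C_mul_X_pow, if_pos rfl]
    · intro j _ hj
      rw [mul_comm, Polynomial.coeff_C_mul_X_pow, if_neg (Ne.symm hj)]
    · exact fun hk => absurd (Finset.mem_range.2 k.val_lt) hk
  rw [hall i, hall 0]

/-- Idempotents in dimension two. -/
theorem trace_idem {Q : Matrix (Fin 2) (Fin 2) ℂ} (h : Q * Q = Q) :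
    Q.trace = 0 ∨ Q.trace = 1 ∨ Q.trace = 2 := by
  have h00 := congrFun (congrFun h 0) 0
  have h01 := congrFun (congrFun h 0) 1
  have h10 := congrFun (congrFun h 1) 0
  have h11 := congrFun (congrFun h 1) 1
  simp only [Matrix.mul_apply, Fin.sum_univ_two] at h00 h01 h10 h11
  simp only [Matrix.trace_fin_two]
  by_cases ht : Q 0 0 + Q 1 1 = 1
  · exact Or.inr (Or.inl ht)
  have e01 : Q 0 1 = 0 := by
    have : Q 0 1 * (Q 0 0 + Q 1 1 - 1) = 0 := by linear_combination h01
    exact (mul_eq_zero.1 this).resolve_right (sub_ne_zero.2 ht)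
  have a0 : Q 0 0 = 0 ∨ Q 0 0 = 1 := by
    have : Q 0 0 * (Q 0 0 - 1) = 0 := by linear_combination h00 - Q 1 0 * e01
    exact (mul_eq_zero.1 this).imp_right sub_eq_zero.1
  have a1 : Q 1 1 = 0 ∨ Q 1 1 = 1 := by
    have : Q 1 1 * (Q 1 1 - 1) = 0 := by linear_combination h11 - Q 1 0 * e01
    exact (mul_eq_zero.1 this).imp_right sub_eq_zero.1
  rcases a0 with a0 | a0 <;> rcases a1 with a1 | a1 <;> simp_all <;> norm_num

/-- A matrix commuting with a rank one idempotent is determined by two eigenvalues. -/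
theorem eq_smul_add {Q M : Matrix (Fin 2) (Fin 2) ℂ} {x : ℂ} (h : Q * Q = Q)
    (ht : Q.trace = 1) (hr : M * Q = x • Q) (hl : Q * M = x • Q) :
    M = x • Q + (M.trace - x) • (1 - Q) := by
  simp only [Matrix.trace_fin_two] at ht
  have hh := fun i j => congrFun (congrFun h i) j
  have r := fun i j => congrFun (congrFun hr i) j
  have l := fun i j => congrFun (congrFun hl i) j
  simp only [Matrix.mul_apply, Fin.sum_univ_two, Matrix.smul_apply, smul_eq_mul] at r l hh
  ext i j
  simp only [Matrix.add_apply, Matrix.smul_apply, Matrix.sub_apply, Matrix.trace_fin_two,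
    smul_eq_mul]
  fin_cases i <;> fin_cases j <;>
    simp only [Fin.zero_eta, Fin.mk_one, Matrix.one_apply_eq, ne_eq, zero_ne_one, one_ne_zero,
      not_false_eq_true, Matrix.one_apply_ne]
  · linear_combination r 0 0 - l 1 1 - x * hh 0 0 + x * hh 1 1
      + (M 1 1 - x * Q 1 1 - x * (1 - Q 0 0)) * ht
  · linear_combination r 0 1 + l 0 1 - 2 * x * hh 0 1 + (-(M 0 1 - x * Q 0 1) + x * Q 0 1) * ht
  · linear_combination r 1 0 + l 1 0 - 2 * x * hh 1 0 + (-(M 1 0 - x * Q 1 0) + x * Q 1 0) * ht
  · linear_combination r 1 1 - l 0 0 - x * hh 1 1 + x * hh 0 0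
      + (M 0 0 - x * Q 0 0 - x * (1 - Q 1 1)) * ht

end Cfsg.Agent.PermB.TwoP
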